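import Cfsg.Agent.H460.EllC
import Cfsg.Agent.FixBN.OfBN
import Cfsg.Agent.FixBN.TwOfBN
import Cfsg.Agent.S0311
import Cfsg.Agent.S0320

/-!
# Rank two: an element in no proper parabolic subgroup has a conjugate in `P_1 P_2` (helper829, task 2640)
-/

set_option autoImplicit false
set_option linter.unusedSectionVars false

namespace Cfsg.Agent.H829.S3828

open Cfsg Cfsg.Agent.LieExceptional.BNPairCore Cfsg.Agent.Tits.Core Cfsg.Agent.Tits.Core.Bldg
  Cfsg.Agent.Tits.OfBN Cfsg.Agent.Tits.OppRes Cfsg.Agent.Tits.Exchange Cfsg.Agent.Tits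
open Cfsg.Agent.FixBN (Split Sys)
open Cfsg.Agent.FixOdd (Tw)
open Cfsg.Agent.H460.EllC

/-- elements of `W_i` -/
theorem mem_WJ_single {I : Type*} {M : CoxeterMatrix I} {W : Type*} [Group W] {cs : CoxeterSystem M W} {i : I} {w : W}
    (hw : w ∈ WJ cs ({i} : Set I)) : w = 1 ∨ w = cs.simple i := by
  unfold WJ at hw
  rw [Set.image_singleton] at hw
  obtain ⟨n, rfl⟩ := Subgroup.mem_closure_singleton.1 hw
  have hs : cs.simple i ^ (2 : ℤ) = 1 := by
    have := cs.simple_sq i
    exact_mod_cast this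
  rcases Int.even_or_odd' n with ⟨k, rfl | rfl⟩
  · left; rw [zpow_mul, hs, one_zpow]
  · right; rw [zpow_add, zpow_mul, hs, one_zpow, one_mul, zpow_one]

theorem simple_ne_one {I : Type*} {M : CoxeterMatrix I} {W : Type*} [Group W] (cs : CoxeterSystem M W) (i : I) :
    cs.simple i ≠ 1 := by
  intro h
  have h1 := cs.length_simple i
  rw [h, cs.length_one] at h1
  exact absurd h1 (by norm_num)

section

variable {G : Type*} [Group G] {P : Cfsg.BNPair G}

theorem parabolic_empty : P.parabolic ∅ = P.B := by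
  unfold Cfsg.BNPair.parabolic
  rw [Subgroup.closure_empty, sup_bot_eq]

theorem parabolic_S : P.parabolic P.S = ⊤ := by
  unfold Cfsg.BNPair.parabolic
  rw [eq_top_iff, ← P.sup_eq_top]
  refine sup_le le_sup_left ?_
  rw [← P.closure_sup]
  exact sup_le le_sup_right (inf_le_left.trans le_sup_left)

/-- the proper overgroups of `B`, different from `B` -/
theorem exists_single {s t : G} (hS : P.S = {s, t}) {H : Subgroup G} (hB : P.B ≤ H) (h1 : H ≠ ⊤) (h2 : H ≠ P.B) :
    ∃ a ∈ P.S, H = P.parabolic {a} := by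
  obtain ⟨J, hJ, rfl⟩ := Cfsg.Agent.S0311.result P H hB
  rw [hS] at hJ
  rcases Set.subset_pair_iff_eq.1 hJ with h | h | h | h
  · rw [h, parabolic_empty] at h2
    exact absurd rfl h2
  · exact ⟨s, by rw [hS]; exact Set.mem_insert _ _, by rw [h]⟩
  · exact ⟨t, by rw [hS]; exact Set.mem_insert_of_mem _ rfl, by rw [h]⟩
  · rw [h, ← hS, parabolic_S] at h1
    exact absurd rfl h1

theorem mem_parabolic_single {a : G} : a ∈ P.parabolic {a} :=
  (le_sup_right : _ ≤ P.parabolic {a}) (Subgroup.subset_closure rfl)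

theorem sup_eq_top {s t : G} (hS : P.S = {s, t}) {H1 H2 : Subgroup G} (hB1 : P.B ≤ H1)
    (hB2 : P.B ≤ H2) (h1 : H1 ≠ ⊤) (h2 : H2 ≠ ⊤) (hn1 : H1 ≠ P.B) (hn2 : H2 ≠ P.B) (hne : H1 ≠ H2) :
    H1 ⊔ H2 = ⊤ := by
  obtain ⟨a, ha, rfl⟩ := exists_single hS hB1 h1 hn1
  obtain ⟨b, hb, rfl⟩ := exists_single hS hB2 h2 hn2
  have hab : a ≠ b := fun h => hne (by rw [h])
  rw [eq_top_iff, ← parabolic_S]
  refine sup_le (hB1.trans le_sup_left) ((Subgroup.closure_le _).2 ?_)
  intro x hx
  have ha' := ha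
  have hb' := hb
  rw [hS] at ha' hb' hx
  have hcov : x = a ∨ x = b := by
    rcases hx with h | h <;> rcases ha' with h' | h' <;> rcases hb' with h'' | h''
    · exact absurd (h'.trans h''.symm) hab
    · left; exact h.trans h'.symm
    · right; exact h.trans h''.symm
    · exact absurd (h'.trans h''.symm) hab
    · exact absurd (h'.trans h''.symm) hab
    · right; exact h.trans h''.symm
    · left; exact h.trans h'.symm
    · exact absurd (h'.trans h''.symm) hab
  rcases hcov with rfl | rfl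
  · exact Subgroup.mem_sup_left mem_parabolic_single
  · exact Subgroup.mem_sup_right mem_parabolic_single

variable [Finite G] {r : ℕ} [hr : Fact r.Prime] {U : Subgroup G}

/-- **An element with no conjugate in the two parabolic subgroups has a conjugate in their product.** -/
theorem exists_mul (hs : Split P r U) {s t : G} (hS : P.S = {s, t}) {H1 H2 : Subgroup G} (hB1 : P.B ≤ H1)
    (hB2 : P.B ≤ H2) (h1 : H1 ≠ ⊤) (h2 : H2 ≠ ⊤) (hn1 : H1 ≠ P.B) (hn2 : H2 ≠ P.B) (hne : H1 ≠ H2) (c : G)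
    (hc1 : ∀ g, g * c * g⁻¹ ∉ H1) (hc2 : ∀ g, g * c * g⁻¹ ∉ H2) :
    ∃ g, ∃ x ∈ H1, ∃ y ∈ H2, g * c * g⁻¹ = x * y := by
  obtain ⟨a, ha, rfl⟩ := exists_single hS hB1 h1 hn1
  obtain ⟨b, hb, rfl⟩ := exists_single hS hB2 h2 hn2
  have hab : a ≠ b := fun h => hne (by rw [h])
  have hN : ((P.B ⊓ P.N).subgroupOf P.N).Normal := normal_subgroupOf P
  obtain ⟨Mx, cs, hcs⟩ := Cfsg.Agent.S0320.result P
  have hI : Finite P.S := FixBN.OfBN.finite_I (Equiv.refl P.S)
  have hcov : ∀ i : P.S, i = ⟨a, ha⟩ ∨ i = ⟨b, hb⟩ := by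
    rintro ⟨x, hx⟩
    have ha' := ha
    have hb' := hb
    have hx' := hx
    rw [hS] at ha' hb' hx'
    rcases hx' with h | h <;> rcases ha' with h' | h' <;> rcases hb' with h'' | h''
    · exact absurd (h'.trans h''.symm) hab
    · left; exact Subtype.ext (h.trans h'.symm)
    · right; exact Subtype.ext (h.trans h''.symm)
    · exact absurd (h'.trans h''.symm) hab
    · exact absurd (h'.trans h''.symm) hab
    · right; exact Subtype.ext (h.trans h''.symm)
    · left; exact Subtype.ext (h.trans h'.symm)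
    · exact absurd (h'.trans h''.symm) hab
  let Δ := bldg P (Equiv.refl P.S) cs hcs
  let Sy : Sys Δ G r := FixBN.OfBN.sys (Equiv.refl P.S) cs hcs hs
  have hth : Δ.Thick := thick P (Equiv.refl P.S) cs hcs
  let T : Tw Δ G :=
    { τ := MulAut.conj c
      θ := MulAction.toPerm c
      φ := MulEquiv.refl _
      σ := Equiv.refl _
      φ_simple := fun _ => rfl
      δ_θ := fun x y => Sy.iso c x y
      θ_smul := fun g x => by
        show c • (g • x) = (c * g * c⁻¹) • (c • x)
        rw [← mul_smul, ← mul_smul, inv_mul_cancel_right] }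
  -- proper subsets
  have hK : ∀ K : Set P.S, K ≠ Set.univ → ∀ w ∈ WJ cs K, w = 1 ∨ w = cs.simple ⟨a, ha⟩ ∨ w = cs.simple ⟨b, hb⟩ := by
    intro K hK w hw
    obtain ⟨i, hi⟩ := (Set.ne_univ_iff_exists_notMem K).1 hK
    rcases hcov i with rfl | rfl
    · have h3 : K ⊆ {⟨b, hb⟩} := by
        intro j hj
        rcases hcov j with h | h
        · rw [h] at hj
          exact absurd hj hi
        · exact h
      have h4 : w ∈ WJ cs ({⟨b, hb⟩} : Set P.S) := Subgroup.closure_mono (Set.image_mono h3) hw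
      rcases mem_WJ_single h4 with h | h
      · exact Or.inl h
      · exact Or.inr (Or.inr h)
    · have h3 : K ⊆ {⟨a, ha⟩} := by
        intro j hj
        rcases hcov j with h | h
        · exact h
        · rw [h] at hj
          exact absurd hj hi
      have h4 : w ∈ WJ cs ({⟨a, ha⟩} : Set P.S) := Subgroup.closure_mono (Set.image_mono h3) hw
      rcases mem_WJ_single h4 with h | h
      · exact Or.inl h
      · exact Or.inr (Or.inl h)
  have hδ : ∀ g : G, Δ.δ (QuotientGroup.mk g) (T.θ (QuotientGroup.mk g)) = wt P (g⁻¹ * (c * g)) := fun g =>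
    bldg_δ_mk P (Equiv.refl P.S) cs hcs g (c * g)
  have hell : Elliptic T := by
    intro y J hy
    by_contra hJ
    induction y using QuotientGroup.induction_on with
    | H g =>
    have h3 : wt P (g⁻¹ * (c * g)) ∈ WJ cs J := by
      rw [← hδ]; exact hy
    have e : g⁻¹ * c * g⁻¹⁻¹ = g⁻¹ * (c * g) := by group
    rcases hK J hJ _ h3 with h | h | h
    · have h4 : g⁻¹ * (c * g) ∈ C P ((1 : P.N) : G) := mem_C_of_wt P (by rw [h]; rfl)
      obtain ⟨x, hx, y, hy, e'⟩ := mem_C.1 h4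
      apply hc1 g⁻¹
      rw [e, e']
      exact mul_mem (mul_mem (hB1 hx) (one_mem _)) (hB1 hy)
    · rw [hcs] at h
      obtain ⟨x, hx, y, hy, e'⟩ := mem_C.1 (mem_C_of_wt P h)
      apply hc1 g⁻¹
      rw [e, e']
      exact mul_mem (mul_mem (hB1 hx) mem_parabolic_single) (hB1 hy)
    · rw [hcs] at h
      obtain ⟨x, hx, y, hy, e'⟩ := mem_C.1 (mem_C_of_wt P h)
      apply hc2 g⁻¹
      rw [e, e']
      exact mul_mem (mul_mem (hB2 hx) mem_parabolic_single) (hB2 hy)
  have hfull : Full cs (cs.simple ⟨a, ha⟩ * cs.simple ⟨b, hb⟩) := by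
    intro K hw
    by_contra hKu
    rcases hK K hKu _ hw with h | h | h
    · have h3 : cs.simple ⟨a, ha⟩ = cs.simple ⟨b, hb⟩ := by
        have h4 := mul_eq_one_iff_eq_inv.1 h
        rwa [cs.inv_simple] at h4
      rw [hcs, hcs, mk_eq_iff] at h3
      exact hab (P.inj a ha b hb h3)
    · exact simple_ne_one cs _ (mul_eq_left.1 h)
    · exact simple_ne_one cs _ (mul_eq_right.1 h)
  have hC : Nonempty (G ⧸ P.B) := ⟨QuotientGroup.mk 1⟩
  obtain ⟨y, hy⟩ := exists_delta' Sy hth (t := T) (fun _ => rfl) hell hfull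
  induction y using QuotientGroup.induction_on with
  | H g =>
  rw [hδ, hcs, hcs, ← QuotientGroup.mk_mul] at hy
  obtain ⟨x, hx, z, hz, e'⟩ := mem_C.1 (mem_C_of_wt P hy)
  refine ⟨g⁻¹, x * a, mul_mem (hB1 hx) mem_parabolic_single, b * z, mul_mem mem_parabolic_single (hB2 hz), ?_⟩
  have e : g⁻¹ * c * g⁻¹⁻¹ = g⁻¹ * (c * g) := by group
  rw [e, e']
  show x * (a * b) * z = x * a * (b * z)
  group

end

end Cfsg.Agent.H829.S3828
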